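import Mathlib
import Cfsg.Agent.Lib.RF4.Defs
import Cfsg.Agent.Lib.CT.Pres
import Cfsg.Agent.S2397
import Cfsg.Agent.S1077
import Cfsg.Agent.S1078

set_option autoImplicit false
set_option Elab.async false

namespace CfsgLib.RF4

open Subgroup CfsgLib.F42
open scoped commutatorElement

/-! # The Curtis-Tits theorem for `F₄` in characteristic two (package CT) -/

open Cfsg.Lie CfsgLib.Stein

namespace CtP

open CfsgLib.CT CfsgLib.Chev CfsgLib.Weyl CfsgLib.RGD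

/-- the Curtis-Tits theorem without the relations between the torus elements -/
theorem exists_hom12 {D : ChevalleyDatum} (h : RtOK D) [Good D] (hg : GenOK D) {K : Type*} [Field K] [Finite K]
    {G : Type*} [Group G] {y : ℕ → K → G}
    (h1 : ∀ i j r, D.InRankTwoSub i j r → ∀ t u, y r (t + u) = y r t * y r u)
    (h2 : ∀ i j r s, D.InRankTwoSub i j r → D.InRankTwoSub i j s → s ≠ r → s ≠ D.neg r → ∀ t u,
      (y s u)⁻¹ * (y r t)⁻¹ * y s u * y r t = wordG y (D.commWord K r s t u)) :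
    ∃ ψ : D.SteinbergGroup K →* G, ∀ i j r, D.InRankTwoSub i j r → ∀ t, ψ (D.stGen K r t) = y r t := by
  obtain ⟨π, C⟩ := exists_cover_steinberg (K := K) h
  have hS₀ := C.sys_nondeg h hg
  let θ := MonoidHom.snd G (D.SteinbergGroup K)
  let z : ℕ → K → G × D.SteinbergGroup K := fun r t => (y r t, D.stGen K r t)
  have P : ∀ i j, PreSys (rootSys h) {i, j} fun (r : Fin D.nroots) t => z r t := by
    refine fun i j => ⟨fun r hr t u => Prod.ext (h1 i j r ((inRankTwoSub_iff h i j r).2 hr) t u)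
      (rel12_steinberg.add r r.2 t u).symm, fun r s hr hs e1 e2 t u => ?_⟩
    have e1' : (s : ℕ) ≠ r := fun e => e1 (Fin.ext e)
    have e2' : (s : ℕ) ≠ D.neg r := fun e => e2 (Fin.ext e)
    have : (z s u)⁻¹ * (z r t)⁻¹ * z s u * z r t = wordG z (D.commWord K r s t u) := Prod.ext
      ((h2 i j r s ((inRankTwoSub_iff h i j r).2 hr) ((inRankTwoSub_iff h i j s).2 hs) e1' e2' t u).trans
        (map_wordG z y (MonoidHom.fst _ _) _ fun _ _ => rfl).symm)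
      ((rel12_steinberg.comm r r.2 s s.2 e1' e2' t u).trans (map_wordG z _ θ _ fun _ _ => rfl).symm)
    rw [this]
    exact wordG_commWord_mem h z r s t u
  obtain ⟨S, k1, k2, -⟩ := (data_of_preSys hS₀ (θ := θ) P (fun i j r _ t => rfl) fun i => by
      obtain ⟨j, hj⟩ := hg i
      refine ⟨j, ?_, fun t => rel12_steinberg.gen h i j hj (by simp) (by simp) t⟩
      rintro rfl
      simp [genChk] at hj).exists_stSys hS₀
  let x : ℕ → K → G × D.SteinbergGroup K := fun r t => if hr : r < D.nroots then S.x ⟨r, hr⟩ t else 1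
  have e : ∀ (r : Fin D.nroots) t, x r t = S.x r t := fun r t => dif_pos r.2
  have e' : ∀ r < D.nroots, ∀ t, θ (x r t) = D.stGen K r t := fun r hr t => by
    rw [e ⟨r, hr⟩, k1]; rfl
  obtain ⟨φ, hφ⟩ := exists_hom_cover h (y := x) ⟨fun r hr t u => by
      rw [e ⟨r, hr⟩, e ⟨r, hr⟩, e ⟨r, hr⟩, S.x_add], fun r hr s hs h4 h5 t u => by
      have h5' : (⟨s, hs⟩ : Fin D.nroots) ≠ (rootSys h).neg ⟨r, hr⟩ := fun e => h5 (congrArg Fin.val e)
      refine eq_of_mem_isSum hS₀ k1 h5' ?_ ?_ ?_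
      · rw [e ⟨r, hr⟩, e ⟨s, hs⟩]
        exact (preSys_of_stSys S Set.univ).comm _ _ ((rootSys h).inSub_univ _)
          ((rootSys h).inSub_univ _) (fun e => h4 (congrArg Fin.val e)) h5' t u
      · simpa only [e] using wordG_commWord_mem h x ⟨r, hr⟩ ⟨s, hs⟩ t u
      · rw [map_wordG x (D.stGen K) θ _ fun p hp => e' _ (mem_commWord_lt h hr hs t u p hp) _,
          ← rel12_steinberg.comm r hr s hs h4 h5]
        simp only [map_mul, map_inv, e' r hr, e' s hs]⟩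
  obtain ⟨ε, hε⟩ := exists_equiv_cover (K := K) h hg
  refine ⟨((MonoidHom.fst _ _).comp φ).comp ε.symm.toMonoidHom, fun i j r hr t => ?_⟩
  rw [← hε]
  change (φ (ε.symm (ε _))).1 = _
  rw [ε.symm_apply_apply, hφ r hr.1, e ⟨r, hr.1⟩, k2 ⟨i, hr.2.1⟩ ⟨j, hr.2.2.1⟩ _
    ((inRankTwoSub_iff h _ _ ⟨r, hr.1⟩).1 hr)]

/-- the terms of the commutator formula with odd coefficient -/
def ot (r s : ℕ) : List (ℕ × ℕ × ℕ) :=
  ((chevF4.commTerms r s).filter fun c => c.2.1 % 2 = 1).map fun c => (c.1, c.2.2)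

/-- exchange of the exponents -/
def sw (c : ℕ × ℕ × ℕ) : ℕ × ℕ × ℕ := (c.1, c.2.2, c.2.1)

/-- the table of the relations -/
def tb : List (ℕ × ℕ × List (ℕ × ℕ × ℕ)) := [
  (13, 27, [(14, 1, 1)]), (33, 13, [(20, 1, 1)]), (14, 20, [(13, 1, 1)]), (14, 34, [(27, 1, 1)]),
  (34, 20, [(33, 1, 1)]), (33, 27, [(34, 1, 1)]), (14, 13, []), (20, 13, []), (14, 27, []), (33, 20, []),
  (27, 34, []), (33, 34, []), (14, 22, []), (14, 25, []), (33, 22, []), (33, 25, []), (14, 23, []), (33, 24, []),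
  (14, 24, []), (33, 23, []), (23, 27, []), (23, 20, []), (24, 27, []), (24, 20, []), (24, 21, [(22, 1, 1)]),
  (25, 21, [(23, 1, 1)]), (23, 22, [(21, 1, 1)]), (22, 26, [(24, 1, 1)]), (23, 26, [(25, 1, 1)]),
  (24, 25, [(26, 1, 1)]), (21, 22, []), (23, 21, []), (24, 22, []), (23, 25, []), (24, 26, []), (26, 25, []),
  (28, 22, [(27, 1, 1), (30, 2, 1)]), (27, 17, [(19, 1, 1), (22, 2, 1)]), (19, 25, [(20, 1, 1), (17, 2, 1)]),
  (20, 30, [(28, 1, 1), (25, 2, 1)]), (30, 19, [(27, 1, 1), (22, 1, 2)]), (22, 20, [(19, 1, 1), (17, 1, 2)]),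
  (17, 28, [(20, 1, 1), (25, 1, 2)]), (25, 27, [(28, 1, 1), (30, 1, 2)]), (28, 27, []), (30, 22, []),
  (28, 30, []), (28, 25, []), (27, 19, []), (22, 17, []), (27, 22, []), (27, 30, []), (19, 20, []), (17, 25, []),
  (19, 17, []), (19, 22, []), (20, 28, []), (25, 30, []), (20, 25, []), (20, 17, [])]

instance (i j r : ℕ) : Decidable (chevF4.InRankTwoSub i j r) := by
  unfold ChevalleyDatum.InRankTwoSub; infer_instance

/-- the check for one pair of roots -/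
def Ok (r s : ℕ) : Prop := (r, s, ot r s) ∈ tb ∨ ∃ e ∈ tb, e.1 = s ∧ e.2.1 = r ∧ e.2.2.map sw = ot r s

set_option synthInstance.maxSize 2000 in
instance (r s : ℕ) : Decidable (Ok r s) := by unfold Ok; infer_instance

set_option synthInstance.maxSize 2000 in
theorem chk : ∀ i < 4, ∀ j < 4, ∀ r < 48, chevF4.InRankTwoSub i j r → ∀ s < 48,
    chevF4.InRankTwoSub i j s → s ≠ r → s ≠ chevF4.neg r → Ok r s := by decide +kernel

variable {K : Type*} [Field K] {G : Type*} [Group G] {y : ℕ → K → G} {r s k k' : ℕ}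

/-- the commutator formula -/
def Cw (y : ℕ → K → G) (r s : ℕ) (w : List (ℕ × ℕ × ℕ)) : Prop := ∀ t u,
  (y s u)⁻¹ * (y r t)⁻¹ * y s u * y r t = (w.map fun c => y c.1 (t ^ c.2.1 * u ^ c.2.2)).prod

/-- the commutator formula in both orders -/
def Cw2 (y : ℕ → K → G) (e : ℕ × ℕ × List (ℕ × ℕ × ℕ)) : Prop :=
  Cw y e.1 e.2.1 e.2.2 ∧ Cw y e.2.1 e.1 (e.2.2.map sw)

theorem key {a b w : G} (ha : a⁻¹ = a) (hb : b⁻¹ = b) (h : b * a * b⁻¹ = a * w) :
    b⁻¹ * a⁻¹ * b * a = w⁻¹ ∧ a⁻¹ * b⁻¹ * a * b = w := by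
  have : a⁻¹ * b⁻¹ * a * b = w := by
    rw [mul_assoc, mul_assoc, inv_mul_eq_iff_eq_mul, ← h, hb, mul_assoc]
  exact ⟨by rw [← this]; group, this⟩

theorem c0 (h : ∀ t u, Commute (y r t) (y s u)) : Cw2 y (r, s, []) :=
  ⟨fun t u => by rw [mul_assoc, ← (h t u).eq]; simp, fun t u => by rw [mul_assoc, (h u t).eq]; simp⟩

theorem c1 (sq : ∀ r t, (y r t)⁻¹ = y r t) (h : ∀ t u, y s u * y r t * (y s u)⁻¹ = y r t * y k (t * u)) :
    Cw2 y (r, s, [(k, 1, 1)]) :=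
  ⟨fun t u => by simpa [sq] using (key (sq _ _) (sq _ _) (h t u)).1,
    fun t u => by simpa [sw, mul_comm t] using (key (sq _ _) (sq _ _) (h u t)).2⟩

theorem c2 (sq : ∀ r t, (y r t)⁻¹ = y r t)
    (h : ∀ t u, y s u * y r t * (y s u)⁻¹ = y r t * (y k' (t ^ 2 * u) * y k (t * u)))
    (h' : ∀ t u, Commute (y k t) (y k' u)) : Cw2 y (r, s, [(k, 1, 1), (k', 2, 1)]) :=
  ⟨fun t u => by simpa [sq] using (key (sq _ _) (sq _ _) (h t u)).1,
    fun t u => by simpa [sw, mul_comm t, (h' _ _).eq] using (key (sq _ _) (sq _ _) (h u t)).2⟩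

theorem c3 (sq : ∀ r t, (y r t)⁻¹ = y r t)
    (h : ∀ u t, y s u * y r t * (y s u)⁻¹ = y r t * (y k (u * t) * y k' (u ^ 2 * t)))
    (h' : ∀ t u, Commute (y k t) (y k' u)) : Cw2 y (r, s, [(k, 1, 1), (k', 1, 2)]) :=
  ⟨fun t u => by simpa [sq, mul_comm t, (h' _ _).eq] using (key (sq _ _) (sq _ _) (h u t)).1,
    fun t u => by simpa [sw] using (key (sq _ _) (sq _ _) (h t u)).2⟩

theorem wordG_eq [CharP K 2] (y0 : ∀ r, y r 0 = 1) (r s : ℕ) (t u : K) : wordG y (chevF4.commWord K r s t u) =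
    ((ot r s).map fun c => y c.1 (t ^ c.2.1 * u ^ c.2.2)).prod := by
  rw [wordG, ChevalleyDatum.commWord, ot]
  induction chevF4.commTerms r s with
  | nil => rfl
  | cons c l ih =>
    have e : ((c.2.1 : ℤ) : K) = (c.2.1 % 2 : ℤ) := by
      conv_lhs => rw [← Int.emod_add_mul_ediv c.2.1 2]
      push_cast
      rw [show (2 : K) = 0 from CharTwo.two_eq_zero, zero_mul, add_zero]
    simp only [CharTwo.neg_eq, List.map_map] at ih
    rcases Int.emod_two_eq_zero_or_one c.2.1 with e' | e' <;> simp [e, e', y0, CharTwo.neg_eq, ih]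

variable (s l m n : ZMod 8 → K → G) in
/-- the root elements -/
def Y : ℕ → K → G
  | 33 => m 4 | 14 => m 0 | 27 => s 2 | 20 => s 6 | 34 => s 3 | 13 => s 7 | 25 => l 7 | 22 => l 3 | 28 => s 0 | 19 => s 4 | 30 => l 1 | 17 => l 5 | 26 => l 6 | 21 => l 2 | 24 => n 4 | 23 => n 0
  | _ => fun _ => 1

variable {s l m n : ZMod 8 → K → G} (h : F4R s l m n)
include h

theorem Y_add (r : ℕ) (t u : K) : Y s l m n r (t + u) = Y s l m n r t * Y s l m n r u := by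
  unfold Y
  split <;> first | exact h.sadd _ _ _ | exact h.ladd _ _ _ | exact h.madd _ _ _ | exact h.nadd _ _ _ | simp

theorem mn4 (i : ZMod 8) (c d : K) : Commute (m (i + 1) c) (n (i + 5) d) := by
  have e := h.ss3 i c 1
  rw [mul_one, eq_comm, ← eq_inv_mul_iff_mul_eq] at e
  have k1 := (h.ns (i + 5) i (Or.inr (Or.inl (by rw [add_assoc]; exact (add_zero i).symm))) d c).symm
  have k2 := (h.ns (i + 5) (i + 3) (Or.inr (Or.inr (by rw [add_assoc]; rfl))) d 1).symm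
  rw [e]
  exact k1.inv_left.mul_left ((k2.mul_left k1).mul_left k2.inv_left)

theorem Y_rel (sq : ∀ r t, (Y s l m n r t)⁻¹ = Y s l m n r t) : ∀ e ∈ tb, Cw2 (Y s l m n) e := by
  simp only [tb, List.forall_mem_cons]
  exact ⟨
    c1 sq (h.ss3 7), c1 sq (h.ms3 4), c1 sq (h.ms6 0), c1 sq (h.ms3 0), c1 sq (h.ss3 3), c1 sq (h.ms6 4),
    c0 (h.ms 0 7 (by decide)), c0 (h.ss 6 7 (by decide)), c0 (h.ms 0 2 (by decide)), c0 (h.ms 4 6 (by decide)),
    c0 (h.ss 2 3 (by decide)), c0 (h.ms 4 3 (by decide)), c0 (h.ml 0 3 (by decide)), c0 (h.ml 0 7 (by decide)),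
    c0 (h.ml 4 3 (by decide)), c0 (h.ml 4 7 (by decide)), c0 (h.mn 0), c0 (h.mn 4), c0 (mn4 h 7), c0 (mn4 h 3),
    c0 (h.ns 0 2 (by decide)), c0 (h.ns 0 6 (by decide)), c0 (h.ns 4 2 (by decide)), c0 (h.ns 4 6 (by decide)),
    c1 sq (h.nl6 4), c1 sq (h.ll3 7), c1 sq (h.nl3 0), c1 sq (h.ll3 3), c1 sq (h.nl6 0), c1 sq (h.nl3 4),
    c0 (h.ll 2 3 (by decide)), c0 (h.nl 0 2 (by decide)), c0 (h.nl 4 3 (by decide)), c0 (h.nl 0 7 (by decide)),
    c0 (h.nl 4 6 (by decide)), c0 (h.ll 6 7 (by decide)), c2 sq (h.sl3 0) (h.sl 2 1 (by decide)),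
    c2 sq (h.sl3 2) (h.sl 4 3 (by decide)), c2 sq (h.sl3 4) (h.sl 6 5 (by decide)),
    c2 sq (h.sl3 6) (h.sl 0 7 (by decide)), c3 sq (h.ls3 1) (h.sl 2 3 (by decide)),
    c3 sq (h.ls3 3) (h.sl 4 5 (by decide)), c3 sq (h.ls3 5) (h.sl 6 7 (by decide)),
    c3 sq (h.ls3 7) (h.sl 0 1 (by decide)), c0 (h.ss 0 2 (by decide)), c0 (h.ll 1 3 (by decide)),
    c0 (h.sl 0 1 (by decide)), c0 (h.sl 0 7 (by decide)), c0 (h.ss 2 4 (by decide)), c0 (h.ll 3 5 (by decide)),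
    c0 (h.sl 2 3 (by decide)), c0 (h.sl 2 1 (by decide)), c0 (h.ss 4 6 (by decide)), c0 (h.ll 5 7 (by decide)),
    c0 (h.sl 4 5 (by decide)), c0 (h.sl 4 3 (by decide)), c0 (h.ss 6 0 (by decide)), c0 (h.ll 7 1 (by decide)),
    c0 (h.sl 6 7 (by decide)), c0 (h.sl 6 5 (by decide)), by simp⟩

end CtP

open CtP

variable {K : Type*} [Field K] [Finite K] [CharP K 2] {G : Type*} [Group G] {s l m n : ZMod 8 → K → G}

theorem F4R.exists_hom (h : F4R s l m n) (hq : 4 < Nat.card K) : ∃ f : chevF4.group K →* G,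
    (∀ c, f (xG chevF4 K 33 c) = m 4 c) ∧ (∀ c, f (xG chevF4 K 14 c) = m 0 c) ∧
    (∀ c, f (xG chevF4 K 27 c) = s 2 c) ∧ (∀ c, f (xG chevF4 K 20 c) = s 6 c) ∧
    (∀ c, f (xG chevF4 K 25 c) = l 7 c) ∧ (∀ c, f (xG chevF4 K 22 c) = l 3 c) ∧
    (∀ c, f (xG chevF4 K 24 c) = n 4 c) ∧ ∀ c, f (xG chevF4 K 23 c) = n 0 c := by
  have y0 : ∀ r, Y s l m n r 0 = 1 := fun r => by simpa using Y_add h r 0 0
  have sq : ∀ r t, (Y s l m n r t)⁻¹ = Y s l m n r t := fun r t =>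
    inv_eq_of_mul_eq_one_right (by rw [← Y_add h, CharTwo.add_self_eq_zero, y0])
  obtain ⟨ψ, hψ⟩ := exists_hom12 Weyl.rtOKF4 (genOK_of_mem (by simp)) (y := Y s l m n) (fun _ _ r _ => Y_add h r)
    fun i j r r' hr hr' e1 e2 t u => by
      rw [wordG_eq y0]
      obtain k | ⟨e, k, rfl, rfl, k'⟩ := chk i hr.2.1 j hr.2.2.1 r hr.1 hr r' hr'.1 hr' e1 e2
      · exact (Y_rel h sq _ k).1 t u
      · exact k' ▸ (Y_rel h sq _ k).2 t u
  obtain ⟨θ, θ1, θ2, θ3⟩ := Cfsg.Agent.S1077.result (K := K) chevF4 (by simp)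
  rw [Cfsg.Agent.S1078.result chevF4 (by simp)] at θ2
  let e := MulEquiv.ofBijective θ ⟨(MonoidHom.ker_eq_bot_iff θ).1 θ2, θ1⟩
  have k : ∀ i r, chevF4.InRankTwoSub i i r → ∀ c,
      ψ.comp e.symm.toMonoidHom (xG chevF4 K r c) = Y s l m n r c := fun i r hr c => by
    rw [← hψ i i r hr, ← eq_xG_iff.1 (θ3 r c hr.1)]
    exact congrArg ψ (e.symm_apply_apply _)
  exact ⟨_, k 0 33 (by decide +kernel), k 0 14 (by decide +kernel), k 1 27 (by decide +kernel),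
    k 1 20 (by decide +kernel), k 2 25 (by decide +kernel), k 2 22 (by decide +kernel), k 3 24 (by decide +kernel),
    k 3 23 (by decide +kernel)⟩

end CfsgLib.RF4
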